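import Mathlib

/-!
# A field with four elements, with computable operations (helper28)
-/

set_option autoImplicit false

namespace Cfsg.Agent.Helper28

/-- The field with four elements: `0, 1, ω, ω + 1`. -/
inductive GF4 : Type
  | z | o | w | v
  deriving DecidableEq

namespace GF4

instance : Fintype GF4 := ⟨⟨[z, o, w, v], by decide⟩, fun x => by cases x <;> decide⟩

/-- addition -/
def add : GF4 → GF4 → GF4
  | z, x => x
  | x, z => x
  | o, o => z
  | o, w => v
  | o, v => w
  | w, o => v
  | w, w => z
  | w, v => o
  | v, o => w
  | v, w => o
  | v, v => z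

/-- multiplication -/
def mul : GF4 → GF4 → GF4
  | z, _ => z
  | _, z => z
  | o, x => x
  | x, o => x
  | w, w => v
  | w, v => o
  | v, w => o
  | v, v => w

/-- inverse -/
def inv : GF4 → GF4
  | z => z
  | o => o
  | w => v
  | v => w

instance : Zero GF4 := ⟨z⟩
instance : One GF4 := ⟨o⟩
instance : Add GF4 := ⟨add⟩
instance : Mul GF4 := ⟨mul⟩
instance : Neg GF4 := ⟨id⟩
instance : Inv GF4 := ⟨inv⟩

instance instCommRing : CommRing GF4 where
  add_assoc := by decide
  zero_add := by decide
  add_zero := by decide
  add_comm := by decide
  neg_add_cancel := by decide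
  mul_assoc := by decide
  one_mul := by decide
  mul_one := by decide
  left_distrib := by decide
  right_distrib := by decide
  mul_comm := by decide
  zero_mul := by decide
  mul_zero := by decide
  nsmul := nsmulRec
  zsmul := zsmulRec

instance instField : Field GF4 where
  exists_pair_ne := ⟨z, o, by decide⟩
  mul_inv_cancel := by decide
  inv_zero := rfl
  nnqsmul := _
  nnqsmul_def := fun _ _ => rfl
  qsmul := _
  qsmul_def := fun _ _ => rfl

theorem card_eq : Fintype.card GF4 = 4 := rfl

end GF4

end Cfsg.Agent.Helper28
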